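import Mathlib
import Cfsg.Prelude.Def_OddOrderLocal
import Cfsg.Prelude.Def_Solvable
import Cfsg.Prelude.Def_LieExceptional
import Cfsg.Agent.H19.MinimalNormal
import Cfsg.Agent.H54.CNBasic
import Cfsg.Agent.H54.CNSolvable
import Cfsg.Agent.H87.SylowTI

/-!
Finite groups all of whose element centralisers are TI: they are CN-groups; the solvable case.
-/

set_option autoImplicit false
set_option linter.style.haveILetI false

namespace Cfsg.Agent.H59.TIC

variable {G : Type*} [Group G]

/-- All element centralisers are TI-subsets. -/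
abbrev Hyp (G : Type*) [Group G] : Prop :=
  ∀ x : G, Cfsg.IsTISubset (Subgroup.centralizer ({x} : Set G) : Set G)

theorem mem_C {x y : G} : y ∈ Subgroup.centralizer ({x} : Set G) ↔ Commute y x :=
  Subgroup.mem_centralizer_singleton_iff

theorem norm_of_mem (h : Hyp G) {x g a : G} (ha : Commute a x) (hga : Commute (g * a * g⁻¹) x)
    (ha1 : a ≠ 1) : g ∈ Subgroup.normalizer (Subgroup.centralizer ({x} : Set G) : Set G) := by
  by_contra hg
  exact ha1 (h x g hg a (mem_C.2 ha) (mem_C.2 hga))

theorem conj_commute {x g y : G}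
    (hg : g ∈ Subgroup.normalizer (Subgroup.centralizer ({x} : Set G) : Set G))
    (hy : Commute y x) : Commute (g * y * g⁻¹) x :=
  mem_C.1 ((Subgroup.mem_normalizer_iff.1 hg y).1 (mem_C.2 hy))

/-- Within a centraliser every element commutes with its conjugates. -/
theorem commute_conj (h : Hyp G) {x a y : G} (hx : x ≠ 1) (ha : Commute a x) (hy : Commute y x) :
    Commute (a * y * a⁻¹) y := by
  refine conj_commute (norm_of_mem h (g := a) hy.symm ?_ hx) (Commute.refl y)
  rw [ha.eq, mul_inv_cancel_right]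
  exact hy.symm

/-- A finite group in which every element commutes with its conjugates is nilpotent. -/
theorem nilpotent_of_commute_conj {X : Type*} [Group X] [Finite X]
    (h : ∀ g y : X, Commute (g * y * g⁻¹) y) : Group.IsNilpotent X := by
  have key : ∀ y : X, y ∈ Cfsg.fittingSubgroup X := by
    intro y
    set N := Subgroup.normalClosure ({y} : Set X) with hN
    have hpair : ∀ a ∈ Group.conjugatesOfSet ({y} : Set X), ∀ b ∈ Group.conjugatesOfSet ({y} : Set X),
        a * b = b * a := by
      intro a ha b hb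
      simp only [Group.mem_conjugatesOfSet_iff, Set.mem_singleton_iff, exists_eq_left] at ha hb
      obtain ⟨c, rfl⟩ := isConj_iff.1 ha
      obtain ⟨d, rfl⟩ := isConj_iff.1 hb
      simpa [mul_assoc] using ((Commute.conj_iff d).2 (h (d⁻¹ * c) y)).eq
    have hle : N ≤ Subgroup.centralizer (N : Set X) := by
      have h1 : N ≤ Subgroup.centralizer (Group.conjugatesOfSet ({y} : Set X)) := by
        refine (Subgroup.closure_le _).2 fun a ha => Subgroup.mem_centralizer_iff.2 fun b hb => ?_
        exact (hpair a ha b hb).symm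
      refine (Subgroup.closure_le _).2 fun a ha => Subgroup.mem_centralizer_iff.2 fun b hb => ?_
      exact (Subgroup.mem_centralizer_iff.1 (h1 hb) a ha).symm
    have hnil : Group.IsNilpotent N := by
      haveI : IsMulCommutative N :=
        ⟨⟨fun a b => Subtype.ext (Subgroup.mem_centralizer_iff.1 (hle b.2) a a.2)⟩⟩
      letI : CommGroup N := { (inferInstance : Group N) with mul_comm := fun a b => mul_comm' a b }
      infer_instance
    exact Cfsg.Agent.H19.le_fitting Subgroup.normalClosure_normal hnil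
      (Subgroup.subset_normalClosure rfl)
  have htop : Cfsg.fittingSubgroup X = ⊤ := (Subgroup.eq_top_iff' _).2 key
  haveI := Cfsg.Agent.H19.fitting_isNilpotent (G := X)
  rw [htop] at this
  exact Group.nilpotent_of_mulEquiv Subgroup.topEquiv

/-- Centralisers of non-identity elements are nilpotent. -/
theorem isCN [Finite G] (h : Hyp G) : Cfsg.IsCNGroup G := fun x hx =>
  nilpotent_of_commute_conj fun g y =>
    Subtype.ext (commute_conj h hx (mem_C.1 g.2) (mem_C.1 y.2)).eq

/-- A solvable non-nilpotent such group is Frobenius with complement cyclic or `Z_m × Q_8`. -/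
theorem solvable_case [Finite G] (h : Hyp G) [Group.IsSolvable G] (hnn : ¬ Group.IsNilpotent G) :
    ∃ H : Subgroup G, Cfsg.IsFrobeniusComplement H ∧
      (IsCyclic H ∨ ∃ m : ℕ, Odd m ∧ Nonempty (H ≃* Multiplicative (ZMod m) × QuaternionGroup 2)) := by
  have hCN := isCN h
  haveI : Nontrivial G := not_subsingleton_iff_nontrivial.1 fun hs => hnn (by infer_instance)
  obtain ⟨A, p, hAn, hA1, -, hp, hAp, -⟩ := Cfsg.Agent.H19.exists_normal_elementary (G := G)
  haveI : Fact p.Prime := ⟨hp⟩
  haveI hsub : Subsingleton (Sylow p G) := ⟨fun P Q => by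
    by_contra hPQ
    have hAP := fun R : Sylow p G =>
      (Cfsg.Agent.H19.le_pCore hAn hAp).trans (Cfsg.Agent.H19.pCore_le_sylow R)
    exact hA1 (le_bot_iff.1 ((le_inf (hAP P) (hAP Q)).trans
      (Cfsg.Agent.H87.sylow_ti_of_centralizer_ti h P Q hPQ).le))⟩
  let P : Sylow p G := default
  haveI : (P : Subgroup G).Normal := Sylow.normal_of_subsingleton P
  have hP1 : (P : Subgroup G) ≠ ⊥ := fun e => hA1 (le_bot_iff.1 (e ▸
    (Cfsg.Agent.H19.le_pCore hAn hAp).trans (Cfsg.Agent.H19.pCore_le_sylow P)))
  obtain ⟨hF1, -, E, hE, hFC, hnil, hfpf⟩ := Cfsg.Agent.H54.cn_frobenius_of_normal_sylow hCN hnn P hP1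
  refine ⟨E, hFC, ?_⟩
  set F := Cfsg.fittingHall G with hF
  haveI := hnil
  haveI : F.Normal := Cfsg.fittingHall_normal G
  haveI : Nontrivial F := (Subgroup.nontrivial_iff_ne_bot F).2 hF1
  haveI : Nontrivial E := (Subgroup.nontrivial_iff_ne_bot E).2 hFC.1
  obtain ⟨z, hz, hz1⟩ := (Subgroup.bot_or_exists_ne_one _).resolve_left
    (Group.IsNilpotent.center_ne_bot E)
  -- inside the complement every element commutes with its conjugates
  have hEc : ∀ a y : E, Commute (a * y * a⁻¹) y := fun a y =>
    Subtype.ext (commute_conj h (fun e => hz1 (Subtype.ext e))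
      (congrArg Subtype.val (Subgroup.mem_center_iff.1 hz a))
      (congrArg Subtype.val (Subgroup.mem_center_iff.1 hz y))).eq
  rcases Cfsg.Agent.H54.fpf_nilpotent_structure _
      (Cfsg.Agent.H21.conjHom_fpf (Cfsg.Agent.H21.le_normalizer_of_normal F E) hfpf)
    with hc | ⟨C, Q, hCQ, hcomm, hCc, hCo, n, ⟨e⟩⟩
  · exact Or.inl hc
  haveI := hCc
  have hn : n ≤ 1 := by
    have hc : Commute (QuaternionGroup.a 1 * QuaternionGroup.xa 1 * (QuaternionGroup.a 1)⁻¹)
        (QuaternionGroup.xa 1 : QuaternionGroup (2 ^ n)) := by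
      have key : ∀ a y : Q, Commute (a * y * a⁻¹) y := fun a y =>
        Subtype.ext (hEc a.1 y.1).eq
      have := (key (e.symm (QuaternionGroup.a 1)) (e.symm (QuaternionGroup.xa 1))).map e.toMonoidHom
      simpa using this
    have h1 : (QuaternionGroup.a 1 : QuaternionGroup (2 ^ n))⁻¹ = QuaternionGroup.a (-1) := rfl
    simp only [Commute, SemiconjBy, h1, QuaternionGroup.a_mul_xa, QuaternionGroup.xa_mul_a,
      QuaternionGroup.xa_mul_xa, QuaternionGroup.a.injEq, sub_self, zero_add] at hc
    have h4 : ((4 : ℕ) : ZMod (2 * 2 ^ n)) = 0 := by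
      push_cast
      linear_combination hc
    have h5 := (ZMod.natCast_eq_zero_iff 4 (2 * 2 ^ n)).1 h4
    by_contra hlt
    have h6 := Nat.le_of_dvd (by norm_num) h5
    have : 2 ^ 2 ≤ 2 ^ n := Nat.pow_le_pow_right two_pos (by omega)
    omega
  have hQc : Nat.card Q = 4 * 2 ^ n := by
    rw [Nat.card_congr e.toEquiv, Nat.card_eq_fintype_card, QuaternionGroup.card]
  have hcop : (Nat.card C).Coprime (Nat.card Q) := by
    rw [hQc, show 4 * 2 ^ n = 2 ^ (n + 2) by ring]
    exact (hCo.coprime_two_left.pow_left _).symm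
  let f : C × Q →* E := MonoidHom.noncommCoprod C.subtype Q.subtype fun a b => hcomm a a.2 b b.2
  have hsurj : Function.Surjective f := by
    rw [← MonoidHom.range_eq_top]
    exact (MonoidHom.noncommCoprod_range ..).trans (by
      rw [Subgroup.range_subtype, Subgroup.range_subtype, hCQ])
  have hinj : Function.Injective f := by
    rw [injective_iff_map_eq_one]
    rintro ⟨a, b⟩ hab
    have hab' : (a : E) * (b : E) = 1 := hab
    have ha : (a : E) ∈ C ⊓ Q := ⟨a.2, by rw [eq_inv_of_mul_eq_one_left hab']; exact (Subgroup.inv_mem Q b.2 : ((b : E))⁻¹ ∈ Q)⟩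
    rw [(Subgroup.disjoint_of_coprime_natCard hcop).eq_bot, Subgroup.mem_bot] at ha
    rw [ha, one_mul] at hab'
    exact Prod.ext (Subtype.ext ha) (Subtype.ext hab')
  let φ : C × Q ≃* E := MulEquiv.ofBijective f ⟨hinj, hsurj⟩
  interval_cases n
  · left
    rw [pow_zero] at e
    haveI := QuaternionGroup.quaternionGroup_one_isCyclic
    haveI : IsCyclic Q := isCyclic_of_surjective e.symm.toMonoidHom e.symm.surjective
    haveI : IsCyclic (C × Q) := Group.isCyclic_prod_iff.2 ⟨hCc, inferInstance, hcop⟩
    exact isCyclic_of_surjective φ.toMonoidHom φ.surjective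
  · right
    rw [pow_one] at e
    exact ⟨Nat.card C, hCo,
      ⟨φ.symm.trans (MulEquiv.prodCongr (zmodCyclicMulEquiv hCc).symm e)⟩⟩

end Cfsg.Agent.H59.TIC
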