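import Mathlib
import Cfsg.Agent.H59.TIC.Basic
import Cfsg.Agent.H50.StronglyEmbedded
import Cfsg.Agent.H86.SylowTI
import Cfsg.Agent.H19.Misc
import Cfsg.Agent.S0183
import Cfsg.Agent.S0215
import Cfsg.Agent.S0231

/-!
Finite non-solvable groups with TI element centralisers: the normaliser of an involution
centraliser is strongly embedded, and acts doubly transitively with Frobenius stabiliser.
-/

set_option autoImplicit false
set_option linter.style.haveILetI false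

open Pointwise

namespace Cfsg.Agent.H59.TIC

open Cfsg.Agent.H50 (orderOf_conj)

variable {G : Type*} [Group G]

/-- The centraliser of `z`. -/
abbrev H (z : G) : Subgroup G := Subgroup.centralizer ({z} : Set G)

/-- The normaliser of the centraliser of `z`. -/
abbrev N (z : G) : Subgroup G := Subgroup.normalizer (H z : Set G)

theorem self_mem (z : G) : z ∈ H z := mem_C.2 (Commute.refl z)

theorem le_N (z : G) : H z ≤ N z := Subgroup.le_normalizer

/-- Elements commuting with a non-identity element of `H` lie in `N`. -/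
theorem cen_le_N (h : Hyp G) {z a g : G} (ha : a ∈ H z) (ha1 : a ≠ 1) (hg : Commute g a) : g ∈ N z :=
  norm_of_mem h (mem_C.1 ha) (by rw [hg.eq, mul_inv_cancel_right]; exact mem_C.1 ha) ha1

instance normal_H (z : G) : ((H z).subgroupOf (N z)).Normal := Subgroup.normal_in_normalizer

variable [Finite G]

/-- The data: `z` is an involution central in a non-normal Sylow 2-subgroup. -/
structure Loc (z : G) (S : Sylow 2 G) : Prop where
  ti : Hyp G
  ord : orderOf z = 2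
  cent : ∀ s ∈ (S : Subgroup G), Commute s z
  nn : ¬ (S : Subgroup G).Normal

variable {z : G} {S : Sylow 2 G}

theorem Loc.ne_one (L : Loc z S) : z ≠ 1 := fun e => by
  have := L.ord
  rw [e, orderOf_one] at this
  omega

theorem Loc.S_le_H (L : Loc z S) : (S : Subgroup G) ≤ H z := fun s hs => mem_C.2 (L.cent s hs)

theorem Loc.nil_H (L : Loc z S) : Group.IsNilpotent (H z) := isCN L.ti z L.ne_one

theorem Loc.two_mem (L : Loc z S) {g : G} (hg : g ∈ H z) (h2 : ∃ k, orderOf g = 2 ^ k) :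
    g ∈ (S : Subgroup G) := by
  obtain ⟨k, hk⟩ := h2
  haveI := L.nil_H
  have hn : (((S.subtype L.S_le_H) : Sylow 2 (H z)) : Subgroup (H z)).Normal := inferInstance
  haveI : Subsingleton (Sylow 2 (H z)) := by
    letI := Sylow.unique_of_normal _ hn
    infer_instance
  have hp : IsPGroup 2 (Subgroup.zpowers (⟨g, hg⟩ : H z)) :=
    IsPGroup.of_card (n := k) (by rw [Nat.card_zpowers, Subgroup.orderOf_mk, hk])
  obtain ⟨T, hT⟩ := hp.exists_le_sylow
  rw [Subsingleton.elim T (S.subtype L.S_le_H)] at hT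
  exact hT (Subgroup.mem_zpowers _)

theorem Loc.norm_S (L : Loc z S) {g : G} (hg : g ∈ N z) :
    g ∈ Subgroup.normalizer ((S : Subgroup G) : Set G) := by
  have key : ∀ g ∈ N z, ∀ s ∈ (S : Subgroup G), g * s * g⁻¹ ∈ (S : Subgroup G) := by
    intro g hg s hs
    refine L.two_mem ((Subgroup.mem_normalizer_iff.1 hg s).1 (L.S_le_H hs)) ?_
    obtain ⟨k, hk⟩ := IsPGroup.iff_orderOf.1 S.2 ⟨s, hs⟩
    exact ⟨k, by rw [orderOf_conj, ← hk, Subgroup.orderOf_mk]⟩
  rw [Subgroup.mem_normalizer_iff]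
  refine fun s => ⟨key g hg s, fun hs => ?_⟩
  simpa [mul_assoc] using key g⁻¹ (inv_mem hg) _ hs

theorem Loc.N_ne_top (L : Loc z S) : N z ≠ ⊤ := fun e =>
  L.nn (Subgroup.normalizer_eq_top_iff.1 ((Subgroup.eq_top_iff' _).2 fun g =>
    L.norm_S (e ▸ Subgroup.mem_top g)))

theorem Loc.inv_mem_S (L : Loc z S) {t : G} (ht : t ∈ N z) (h2 : orderOf t = 2) :
    t ∈ (S : Subgroup G) := by
  refine Cfsg.Agent.H86.le_sylow_of_normalizes S (R := Subgroup.zpowers t)
    (IsPGroup.of_card (n := 1) (by rw [Nat.card_zpowers, h2, pow_one]))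
    (Subgroup.zpowers_le.2 (L.norm_S ht)) (Subgroup.mem_zpowers t)

theorem Loc.inv_mem_H (L : Loc z S) {t : G} (ht : t ∈ N z) (h2 : orderOf t = 2) : t ∈ H z :=
  L.S_le_H (L.inv_mem_S ht h2)

theorem Loc.exists_conj (L : Loc z S) {t : G} (ht : t ∈ N z) (h2 : orderOf t = 2) :
    ∃ g ∈ N z, g * z * g⁻¹ = t := by
  obtain ⟨g, hg⟩ := isConj_iff.1 (Cfsg.Agent.S0231.result S L.nn (fun g hg => by
    have hne : g • S ≠ S := fun e => hg (congrArg (fun T : Sylow 2 G => (T : Subgroup G)) e)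
    exact Cfsg.Agent.H87.sylow_ti_of_centralizer_ti L.ti _ _ hne) z t L.ord h2)
  refine ⟨g, norm_of_mem L.ti (Commute.refl z) ?_ L.ne_one, hg⟩
  rw [hg]; exact mem_C.1 (L.inv_mem_H ht h2)

/-- An involution of `N` has centraliser exactly `H`. -/
theorem Loc.cen_inv (L : Loc z S) {t : G} (ht : t ∈ N z) (h2 : orderOf t = 2) (c : G) :
    Commute c t ↔ c ∈ H z := by
  obtain ⟨g, hg, rfl⟩ := L.exists_conj ht h2
  have key : Commute c (g * z * g⁻¹) ↔ g⁻¹ * c * g ∈ H z := by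
    rw [mem_C, ← Commute.conj_iff g (a := g⁻¹ * c * g)]
    simp [mul_assoc]
  rw [key]
  conv_rhs => rw [Subgroup.mem_normalizer_iff.1 (inv_mem hg) c]
  simp

theorem Loc.mem_N_z (L : Loc z S) : z ∈ N z := le_N z (self_mem z)

theorem Loc.se (L : Loc z S) : Cfsg.IsStronglyEmbedded (N z) := by
  have hev : Even (Nat.card (N z)) := even_iff_two_dvd.2 (L.ord ▸ Subgroup.orderOf_dvd_natCard _ L.mem_N_z)
  refine (Cfsg.Agent.H28.isStronglyEmbedded_iff_mem L.N_ne_top hev).2 fun t ht ht2 g hg => ?_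
  have hg2 : orderOf (g⁻¹ * t * g) = 2 := by
    rw [show g⁻¹ * t * g = g⁻¹ * t * g⁻¹⁻¹ by rw [inv_inv], orderOf_conj, ht2]
  obtain ⟨a, ha, rfl⟩ := L.exists_conj ht ht2
  obtain ⟨b, hb, hbz⟩ := L.exists_conj hg hg2
  have : a⁻¹ * g * b ∈ H z := by
    refine mem_C.2 ?_
    show a⁻¹ * g * b * z = z * (a⁻¹ * g * b)
    calc a⁻¹ * g * b * z = a⁻¹ * g * (b * z * b⁻¹) * b := by group
      _ = z * (a⁻¹ * g * b) := by rw [hbz]; group
  have := mul_mem (mul_mem ha (le_N z this)) (inv_mem hb)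
  simpa [mul_assoc] using this

/-- The number of involutions in `N`. -/
noncomputable def q1 (z : G) : ℕ := Nat.card {t : G // orderOf t = 2 ∧ t ∈ N z}

theorem Loc.card_quot (L : Loc z S) : Nat.card (N z ⧸ (H z).subgroupOf (N z)) = q1 z := by
  let f : N z ⧸ (H z).subgroupOf (N z) → {t : G // orderOf t = 2 ∧ t ∈ N z} :=
    Quotient.lift (fun g : N z => (⟨g.1 * z * g.1⁻¹, by rw [orderOf_conj, L.ord],
      mul_mem (mul_mem g.2 L.mem_N_z) (inv_mem g.2)⟩ : {t : G // orderOf t = 2 ∧ t ∈ N z}))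
      (fun a b hab => Subtype.ext (by
        replace hab := QuotientGroup.leftRel_apply.1 hab
        rw [Subgroup.mem_subgroupOf] at hab
        have h : (a.1⁻¹ * b.1) * z = z * (a.1⁻¹ * b.1) := mem_C.1 hab
        show a.1 * z * a.1⁻¹ = b.1 * z * b.1⁻¹
        calc a.1 * z * a.1⁻¹ = a.1 * (z * (a.1⁻¹ * b.1)) * b.1⁻¹ := by group
          _ = _ := by rw [← h]; group))
  refine Nat.card_congr (Equiv.ofBijective f ⟨?_, ?_⟩)
  · intro a b e
    induction a using QuotientGroup.induction_on with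
    | H a =>
    induction b using QuotientGroup.induction_on with
    | H b =>
    have e' : a.1 * z * a.1⁻¹ = b.1 * z * b.1⁻¹ := congrArg Subtype.val e
    rw [QuotientGroup.eq, Subgroup.mem_subgroupOf]
    refine mem_C.2 ?_
    show a.1⁻¹ * b.1 * z = z * (a.1⁻¹ * b.1)
    calc a.1⁻¹ * b.1 * z = a.1⁻¹ * (b.1 * z * b.1⁻¹) * b.1 := by group
      _ = _ := by rw [← e']; group
  · rintro ⟨t, h2, ht⟩
    obtain ⟨g, hg, rfl⟩ := L.exists_conj ht h2
    exact ⟨QuotientGroup.mk ⟨g, hg⟩, rfl⟩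

theorem Loc.q1_odd (L : Loc z S) : Odd (q1 z) := by
  rw [← L.card_quot, ← Subgroup.index_eq_card, ← Nat.not_even_iff_odd, even_iff_two_dvd]
  intro h
  exact S.not_dvd_index (h.trans ((Subgroup.relIndex_dvd_index_of_le (le_N z)).trans
    (Subgroup.index_dvd_of_le L.S_le_H)))

/-- An element of odd order of `N` commuting with a non-identity element of `H` lies in `H`. -/
theorem Loc.odd_cen (L : Loc z S) {k a : G} (hk : Odd (orderOf k)) (ha : a ∈ H z) (ha1 : a ≠ 1)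
    (hka : Commute k a) : k ∈ H z := by
  refine mem_C.2 (Cfsg.Agent.H54.cn_commute (isCN L.ti) ha1 hka (mem_C.1 ha).symm ?_)
  rw [L.ord]
  exact hk.coprime_two_right

theorem Loc.coprime (L : Loc z S) : (Nat.card (H z)).Coprime (q1 z) := by
  refine Nat.coprime_of_dvd fun p hp h1 h2 => ?_
  haveI : Fact p.Prime := ⟨hp⟩
  set H' := (H z).subgroupOf (N z) with hH'
  haveI : H'.Normal := normal_H z
  have hp2 : p ≠ 2 := fun e => Nat.not_even_iff_odd.2 L.q1_odd (even_iff_two_dvd.2 (e ▸ h2))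
  obtain ⟨⟨x, hx⟩, hxo⟩ := exists_prime_orderOf_dvd_card' (G := H z) p h1
  rw [Subgroup.orderOf_mk] at hxo
  let x' : N z := ⟨x, le_N z hx⟩
  have hx'o : orderOf x' = p := by rw [Subgroup.orderOf_mk, hxo]
  obtain ⟨P, hP⟩ := (IsPGroup.of_card (p := p) (n := 1)
    (by rw [Nat.card_zpowers, hx'o, pow_one]) : IsPGroup p (Subgroup.zpowers x')).exists_le_sylow
  haveI := P.2.isNilpotent
  obtain ⟨y, hy, hy1⟩ := (Subgroup.bot_or_exists_ne_one _).resolve_left
    (Cfsg.Agent.H19.inf_center_ne_bot (H'.subgroupOf (P : Subgroup (N z))) (fun e => by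
      rw [Subgroup.subgroupOf_eq_bot, disjoint_iff, Subgroup.eq_bot_iff_forall] at e
      have := e x' ⟨show x' ∈ H' from hx, hP (Subgroup.mem_zpowers x')⟩
      rw [this, orderOf_one] at hx'o
      exact hp.ne_one hx'o.symm))
  have hPH : (P : Subgroup (N z)) ≤ H' := by
    intro k hk
    refine L.odd_cen ?_ (a := ((y : N z) : G)) hy.1 (fun e => hy1 (Subtype.ext (Subtype.ext e))) ?_
    · obtain ⟨j, hj⟩ := IsPGroup.iff_orderOf.1 P.2 ⟨k, hk⟩
      rw [Subgroup.orderOf_mk] at hj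
      rw [Subgroup.coe_subtype, Subgroup.orderOf_coe, hj]
      exact (hp.odd_of_ne_two hp2).pow
    · exact congrArg (fun t : (P : Subgroup (N z)) => ((t : N z) : G))
        (Subgroup.mem_center_iff.1 hy.2 ⟨k, hk⟩)
  exact P.not_dvd_index ((by rw [Subgroup.index_eq_card, L.card_quot]; exact h2 : p ∣ H'.index).trans
    (Subgroup.index_dvd_of_le hPH))

/-! ## Points -/

/-- The points: cosets of `N`. -/
abbrev Pt (z : G) := G ⧸ N z

/-- The base point. -/
abbrev o (z : G) : Pt z := ((1 : G) : G ⧸ N z)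

theorem smul_o_iff {g : G} : g • o z = o z ↔ g ∈ N z := Cfsg.Agent.H50.smul_one_coset_eq_iff

theorem Loc.mem_H_of_dvd (L : Loc z S) {g : G} (hg : g ∈ N z) (hd : orderOf g ∣ Nat.card (H z)) :
    g ∈ H z := by
  have h1 : orderOf (QuotientGroup.mk' ((H z).subgroupOf (N z)) ⟨g, hg⟩) ∣ 1 := by
    rw [← L.coprime.gcd_eq_one]
    refine Nat.dvd_gcd (((orderOf_map_dvd _ _).trans (Subgroup.orderOf_mk g hg).dvd).trans hd) ?_
    rw [← L.card_quot]
    exact orderOf_dvd_natCard _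
  rw [Nat.dvd_one, orderOf_eq_one_iff, QuotientGroup.mk'_apply, QuotientGroup.eq_one_iff] at h1
  exact h1

/-- Elements of `H` fix no point other than the base point. -/
theorem Loc.free (L : Loc z S) {d : G} (hd : d ∈ H z) (hd1 : d ≠ 1) {y : Pt z} (hy : d • y = y) :
    y = o z := by
  obtain ⟨g, rfl⟩ := QuotientGroup.mk_surjective y
  by_contra hne
  have hgN : g⁻¹ * d * g ∈ N z := by
    rw [MulAction.Quotient.smul_coe, smul_eq_mul, QuotientGroup.eq, mul_inv_rev] at hy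
    simpa [mul_assoc] using inv_mem hy
  have hgH : g⁻¹ * d * g ∈ H z := L.mem_H_of_dvd hgN (by
    rw [show g⁻¹ * d * g = g⁻¹ * d * g⁻¹⁻¹ by rw [inv_inv], orderOf_conj]
    exact Subgroup.orderOf_dvd_natCard _ hd)
  have hw : Commute (g * z * g⁻¹) d := by
    have := (Commute.conj_iff g).2 (mem_C.1 hgH)
    simpa [mul_assoc] using this.symm
  have hfx : (g * z * g⁻¹) • o z = o z := smul_o_iff.2 (cen_le_N L.ti hd hd1 hw)
  have hfy : (g * z * g⁻¹) • ((g : G) : Pt z) = (g : Pt z) := by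
    rw [MulAction.Quotient.smul_coe, smul_eq_mul, inv_mul_cancel_right, QuotientGroup.eq]
    simpa [mul_assoc] using inv_mem L.mem_N_z
  exact hne (Cfsg.Agent.H50.se_fix_unique L.se (by rw [orderOf_conj, L.ord]) hfy hfx)

theorem Loc.eq_one_of_mem (L : Loc z S) {d : G} (hd : d ∈ H z) {y : Pt z} (hne : y ≠ o z)
    (hy : d • y = y) : d = 1 := by
  by_contra h
  exact hne (L.free hd h hy)

/-- The stabiliser of two points. -/
abbrev D (p p' : Pt z) : Subgroup G := MulAction.stabilizer G p ⊓ MulAction.stabilizer G p'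

theorem Loc.D_inj (L : Loc z S) {y : Pt z} (hy : y ≠ o z) (a b : D (o z) y)
    (h : (a.1)⁻¹ * b.1 ∈ H z) : a = b := by
  have := L.eq_one_of_mem h hy (MulAction.mem_stabilizer_iff.1 (mul_mem (inv_mem a.2.2) b.2.2))
  exact Subtype.ext (inv_mul_eq_one.1 this)

/-- The two point stabiliser to the quotient of `N` by `H`. -/
def Dquot (y : Pt z) (a : D (o z) y) : N z ⧸ (H z).subgroupOf (N z) :=
  QuotientGroup.mk ⟨a.1, smul_o_iff.1 (MulAction.mem_stabilizer_iff.1 a.2.1)⟩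

theorem Loc.Dquot_injective (L : Loc z S) {y : Pt z} (hy : y ≠ o z) :
    Function.Injective (Dquot (z := z) y) := fun a b h => by
  refine L.D_inj hy a b ?_
  rw [Dquot, Dquot, QuotientGroup.eq, Subgroup.mem_subgroupOf] at h
  exact h

theorem Loc.D_inverted (L : Loc z S) {y : Pt z} (hy : y ≠ o z) {i : G} (hi : orderOf i = 2)
    (hio : i • o z = y) :
    Nat.card (D (o z) y) = q1 z ∧ ∀ d ∈ D (o z) y, i * d * i⁻¹ = d⁻¹ := by
  have hiy : i • y = o z := Cfsg.Agent.H50.smul_swap hi hio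
  have hii : i * i = 1 := by rw [← sq, ← hi, pow_orderOf_eq_one]
  have hinvi : i⁻¹ = i := inv_eq_of_mul_eq_one_right hii
  let T : {j : G // orderOf j = 2 ∧ j • o z = y} → D (o z) y := fun j =>
    ⟨j.1 * i, by
      have hjy : j.1 • y = o z := Cfsg.Agent.H50.smul_swap j.2.1 j.2.2
      refine ⟨?_, ?_⟩ <;> show (j.1 * i) • _ = _ <;> rw [mul_smul]
      · rw [hio, hjy]
      · rw [hiy, j.2.2]⟩
  have hT : Function.Injective T := fun a b e =>
    Subtype.ext (mul_right_cancel (congrArg Subtype.val e))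
  have h1 : Nat.card {j : G // orderOf j = 2 ∧ j • o z = y} = q1 z :=
    Cfsg.Agent.H50.se_card_swap L.se hy.symm
  have h2 : Nat.card (D (o z) y) ≤ q1 z :=
    L.card_quot ▸ Nat.card_le_card_of_injective _ (L.Dquot_injective hy)
  have h3 := Nat.card_le_card_of_injective T hT
  have heq : Nat.card (D (o z) y) = q1 z := le_antisymm h2 (h1 ▸ h3)
  refine ⟨heq, fun d hd => ?_⟩
  obtain ⟨⟨j, hj, hjo⟩, hje⟩ := (hT.bijective_of_nat_card_le (heq.trans h1.symm).le).2 ⟨d, hd⟩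
  have e : j * i = d := congrArg Subtype.val hje
  have hjj : j⁻¹ = j := inv_eq_of_mul_eq_one_right (by rw [← sq, ← hj, pow_orderOf_eq_one])
  rw [← e, mul_inv_rev, hjj, hinvi, mul_assoc i (j * i) i, mul_assoc j i i, hii, mul_one]

theorem Loc.exists_swap (L : Loc z S) {p p' : Pt z} (h : p ≠ p') :
    ∃ i : G, orderOf i = 2 ∧ i • p = p' := by
  have h0 : 0 < Nat.card {i : G // orderOf i = 2 ∧ i • p = p'} := by
    rw [Cfsg.Agent.H50.se_card_swap L.se h]
    haveI : Nonempty {t : G // orderOf t = 2 ∧ t ∈ N z} := ⟨⟨z, L.ord, L.mem_N_z⟩⟩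
    exact Nat.card_pos
  obtain ⟨⟨i, hi⟩⟩ := (Nat.card_pos_iff.1 h0).1
  exact ⟨i, hi⟩

theorem Loc.D_card (L : Loc z S) {y : Pt z} (hy : y ≠ o z) : Nat.card (D (o z) y) = q1 z := by
  obtain ⟨i, hi, hio⟩ := L.exists_swap hy.symm
  exact (L.D_inverted hy hi hio).1

theorem Loc.D_comm (L : Loc z S) {y : Pt z} (hy : y ≠ o z) {a b : G} (ha : a ∈ D (o z) y)
    (hb : b ∈ D (o z) y) : Commute a b := by
  obtain ⟨i, hi, hio⟩ := L.exists_swap hy.symm
  have h := (L.D_inverted hy hi hio).2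
  have h1 := h _ (mul_mem ha hb)
  rw [show i * (a * b) * i⁻¹ = (i * a * i⁻¹) * (i * b * i⁻¹) by group, h a ha, h b hb,
    ← mul_inv_rev, inv_inj] at h1
  exact h1.symm

/-- An involution exchanging two points inverts every element fixing both. -/
theorem Loc.swap_inverts (L : Loc z S) {p p' : Pt z} (h : p ≠ p') {i d : G} (hi : orderOf i = 2)
    (hip : i • p = p') (hd : d • p = p) (hd' : d • p' = p') : i * d * i⁻¹ = d⁻¹ := by
  obtain ⟨g, hg⟩ := MulAction.exists_smul_eq G p (o z)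
  have hne : g • p' ≠ o z := fun e => h (smul_left_cancel g (hg.trans e.symm))
  have hc : ∀ (a : G) (u v : Pt z), a • u = v → (g * a * g⁻¹) • (g • u) = g • v := by
    intro a u v e
    rw [mul_smul, mul_smul, inv_smul_smul, e]
  have h1 := (L.D_inverted hne (i := g * i * g⁻¹) (by rw [orderOf_conj, hi])
    (hg ▸ hc i p p' hip)).2 (g * d * g⁻¹) ⟨hg ▸ hc d p p hd, hc d p' p' hd'⟩
  rw [show g * i * g⁻¹ * (g * d * g⁻¹) * (g * i * g⁻¹)⁻¹ = g * (i * d * i⁻¹) * g⁻¹ by group,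
    conj_inv] at h1
  exact mul_left_cancel (mul_right_cancel h1)

theorem Loc.odd_of_two_fixed (L : Loc z S) {p p' : Pt z} (h : p ≠ p') {d : G} (hd : d • p = p)
    (hd' : d • p' = p') : Odd (orderOf d) :=
  Cfsg.Agent.H50.se_odd_of_two_fixed L.se h hd hd'

theorem Loc.cen_D (L : Loc z S) {y : Pt z} (hy : y ≠ o z) {d n : G} (hd : d ∈ D (o z) y)
    (hd1 : d ≠ 1) (hn : n ∈ N z) (hc : Commute n d) : n ∈ D (o z) y := by
  have hbij := (L.Dquot_injective hy).bijective_of_nat_card_le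
    (le_of_eq (L.card_quot.trans (L.D_card hy).symm))
  obtain ⟨d0, hd0⟩ := hbij.2 (QuotientGroup.mk ⟨n, hn⟩)
  rw [Dquot, QuotientGroup.eq, Subgroup.mem_subgroupOf] at hd0
  have hc0 : Commute (d0.1⁻¹ * n) d := (L.D_comm hy d0.2 hd).inv_left.mul_left hc
  have : d0.1⁻¹ * n = 1 := by
    by_contra hne
    have hdH : d ∈ H z := L.odd_cen (L.odd_of_two_fixed hy.symm hd.1 hd.2) hd0 hne hc0.symm
    exact hd1 (L.eq_one_of_mem hdH hy hd.2)
  rw [← inv_mul_eq_one.1 this]
  exact d0.2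

theorem Loc.quot_comm (L : Loc z S) {y : Pt z} (hy : y ≠ o z)
    (a b : N z ⧸ (H z).subgroupOf (N z)) : a * b = b * a := by
  have hbij := (L.Dquot_injective hy).bijective_of_nat_card_le
    (le_of_eq (L.card_quot.trans (L.D_card hy).symm))
  obtain ⟨a, rfl⟩ := hbij.2 a
  obtain ⟨b, rfl⟩ := hbij.2 b
  show (QuotientGroup.mk _ : N z ⧸ (H z).subgroupOf (N z)) = QuotientGroup.mk _
  exact congrArg _ (Subtype.ext (L.D_comm hy a.2 b.2).eq)

/-- No non-identity element fixes three points, the first being the base point. -/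
theorem Loc.three (L : Loc z S) {y y' : Pt z} (hy : y ≠ o z) (hy' : y' ≠ o z) (hne : y ≠ y')
    {d : G} (h0 : d • o z = o z) (h1 : d • y = y) (h2 : d • y' = y') : d = 1 := by
  by_contra hd1
  have hdD : d ∈ D (o z) y := ⟨h0, h1⟩
  have hdD' : d ∈ D (o z) y' := ⟨h0, h2⟩
  have hle : D (o z) y' ≤ D (o z) y := fun n hn =>
    L.cen_D hy hdD hd1 (smul_o_iff.1 hn.1) (L.D_comm hy' hn hdD')
  have heq : D (o z) y' = D (o z) y :=
    Subgroup.eq_of_le_of_card_ge hle (by rw [L.D_card hy, L.D_card hy'])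
  obtain ⟨i0, hi0, hi0o⟩ := L.exists_swap hy.symm
  obtain ⟨i1, hi1, hi1o⟩ := L.exists_swap hy'.symm
  obtain ⟨j, hj, hjy⟩ := L.exists_swap hne
  have e0 := L.swap_inverts hy.symm hi0 hi0o h0 h1
  have e1 := L.swap_inverts hy'.symm hi1 hi1o h0 h2
  have e2 := L.swap_inverts hne hj hjy h1 h2
  set h := j * i1 * i0 with hh
  have hinv : h * d * h⁻¹ = d⁻¹ := by
    calc h * d * h⁻¹ = j * (i1 * (i0 * d * i0⁻¹) * i1⁻¹) * j⁻¹ := by rw [hh]; group
      _ = d⁻¹ := by
        rw [e0, show i1 * d⁻¹ * i1⁻¹ = (i1 * d * i1⁻¹)⁻¹ by group, e1, inv_inv, e2]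
  have hfix : h • y = y := by
    rw [hh, mul_smul, mul_smul, Cfsg.Agent.H50.smul_swap hi0 hi0o, hi1o,
      Cfsg.Agent.H50.smul_swap hj hjy]
  obtain ⟨g, hg⟩ := MulAction.exists_smul_eq G (o z) y
  have hN : ∀ a : G, a • y = y → g⁻¹ * a * g ∈ N z := fun a ha => by
    rw [← smul_o_iff, mul_smul, mul_smul, hg, ha, inv_smul_eq_iff, hg]
  set a : N z := ⟨g⁻¹ * h * g, hN h hfix⟩
  set b : N z := ⟨g⁻¹ * d * g, hN d h1⟩
  have hab : a * b * a⁻¹ = b⁻¹ := Subtype.ext (by
    show g⁻¹ * h * g * (g⁻¹ * d * g) * (g⁻¹ * h * g)⁻¹ = (g⁻¹ * d * g)⁻¹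
    calc _ = g⁻¹ * (h * d * h⁻¹) * g := by group
      _ = _ := by rw [hinv]; group)
  have hq := congrArg (QuotientGroup.mk' ((H z).subgroupOf (N z))) hab
  rw [map_mul, map_mul, map_inv, map_inv, L.quot_comm hy, inv_mul_cancel_left] at hq
  set bq := QuotientGroup.mk' ((H z).subgroupOf (N z)) b with hbq
  have hb2 : bq ^ 2 = 1 := by rw [sq]; exact mul_eq_one_iff_eq_inv.2 hq
  have hbodd : Odd (orderOf bq) :=
    L.q1_odd.of_dvd_nat (L.card_quot ▸ orderOf_dvd_natCard _)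
  have hbq1 : orderOf bq = 1 := by
    rcases (Nat.dvd_prime Nat.prime_two).1 (orderOf_dvd_of_pow_eq_one hb2) with e | e
    · exact e
    · rw [e] at hbodd; exact absurd hbodd (by decide)
  rw [orderOf_eq_one_iff, hbq, QuotientGroup.mk'_apply, QuotientGroup.eq_one_iff,
    Subgroup.mem_subgroupOf] at hbq1
  have hord : orderOf (g⁻¹ * d * g) = orderOf d := by
    rw [show g⁻¹ * d * g = g⁻¹ * d * g⁻¹⁻¹ by rw [inv_inv], orderOf_conj]
  have hdvd1 : orderOf d ∣ Nat.card (H z) := hord ▸ Subgroup.orderOf_dvd_natCard _ hbq1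
  have hdvd2 : orderOf d ∣ q1 z := L.D_card hy ▸ Subgroup.orderOf_dvd_natCard _ hdD
  exact hd1 (orderOf_eq_one_iff.1 (Nat.eq_one_of_dvd_coprimes L.coprime hdvd1 hdvd2))

end Cfsg.Agent.H59.TIC
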