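import Mathlib
import Cfsg.Agent.H59.TIC.Local
import Cfsg.Agent.H7.ZassBasic
import Cfsg.Agent.H7.ZassKernel
import Cfsg.Agent.H7.ZassEvenQ
import Cfsg.Agent.H48.Suzuki.TypeA
import Cfsg.Agent.H31.PSLRingEquiv
import Cfsg.Agent.S0885
import Cfsg.Agent.S1147

/-!
Finite non-solvable groups with TI element centralisers are `PSL₂(2ⁿ)`.
-/

set_option autoImplicit false
set_option linter.style.haveILetI false

open Pointwise MulAction

namespace Cfsg.Agent.H59.TIC

open Cfsg.Agent.H50 (orderOf_conj)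

variable {G : Type*} [Group G] [Finite G] {z : G} {S : Sylow 2 G}

/-- A group of this kind with only one involution in `N` is solvable. -/
theorem Loc.two_le_q1 (L : Loc z S) (hns : ¬ Group.IsSolvable G) : 2 ≤ q1 z := by
  by_contra hlt
  have hsub : ∀ t : G, t ∈ N z → orderOf t = 2 → t = z := by
    intro t ht h2
    haveI : Subsingleton {t : G // orderOf t = 2 ∧ t ∈ N z} :=
      Finite.card_le_one_iff_subsingleton.1 (show q1 z ≤ 1 by omega)
    exact congrArg Subtype.val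
      (Subsingleton.elim (⟨t, h2, ht⟩ : {t : G // orderOf t = 2 ∧ t ∈ N z}) ⟨z, L.ord, L.mem_N_z⟩)
  have hzS : z ∈ (S : Subgroup G) := L.inv_mem_S L.mem_N_z L.ord
  obtain ⟨M, hMn, hModd, hM⟩ := Cfsg.Agent.S0215.result S z L.ord hzS fun g hg =>
    hsub _ (le_N z (L.S_le_H hg)) (by rw [orderOf_conj, L.ord])
  have hCN := isCN L.ti
  haveI := hMn
  have hMs : Group.IsSolvable M := Cfsg.Agent.S0183.result hModd (Cfsg.Agent.H54.cn_subgroup hCN M)
  have hzM : z ∉ M := fun h => by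
    have h2 := Subgroup.orderOf_dvd_natCard _ h
    rw [L.ord] at h2
    exact hModd.not_two_dvd_nat h2
  have hcen : (z : G ⧸ M) ∈ Subgroup.center (G ⧸ M) := by
    rw [Subgroup.mem_center_iff]
    intro q
    obtain ⟨g, rfl⟩ := QuotientGroup.mk_surjective q
    have h1 : ((z * g * z⁻¹ * g⁻¹ : G) : G ⧸ M) = 1 := (QuotientGroup.eq_one_iff _).2 (hM g)
    rw [QuotientGroup.mk_mul, QuotientGroup.mk_mul, QuotientGroup.mk_mul, QuotientGroup.mk_inv,
      QuotientGroup.mk_inv, mul_inv_eq_one, mul_inv_eq_iff_eq_mul] at h1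
    exact h1.symm
  haveI : Group.IsNilpotent (G ⧸ M) := Cfsg.Agent.H54.cn_nilpotent_of_center
    (Cfsg.Agent.H54.cn_quotient hCN M hMs) hcen (fun e => hzM ((QuotientGroup.eq_one_iff z).1 e))
  exact hns (solvable_of_ker_le_range M.subtype (QuotientGroup.mk' M) (by simp))

/-- Two involutions in `N`. -/
theorem Loc.exists_second (L : Loc z S) (h2 : 2 ≤ q1 z) :
    ∃ t : G, orderOf t = 2 ∧ t ∈ H z ∧ t ≠ z := by
  haveI : Nontrivial {t : G // orderOf t = 2 ∧ t ∈ N z} :=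
    Finite.one_lt_card_iff_nontrivial.1 (show 1 < q1 z by omega)
  obtain ⟨⟨t, ht, htN⟩, hne⟩ :=
    exists_ne (⟨z, L.ord, L.mem_N_z⟩ : {t : G // orderOf t = 2 ∧ t ∈ N z})
  exact ⟨t, ht, L.inv_mem_H htN ht, fun e => hne (Subtype.ext e)⟩

theorem Loc.exists_D_ne_one (L : Loc z S) (h2 : 2 ≤ q1 z) {y : Pt z} (hy : y ≠ o z) :
    ∃ d ∈ D (o z) y, d ≠ 1 := by
  refine (Subgroup.bot_or_exists_ne_one _).resolve_left fun e => ?_
  have := L.D_card hy
  rw [e, Subgroup.card_bot] at this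
  omega

theorem Loc.smul_H_ne (L : Loc z S) {h : G} (hh : h ∈ H z) {y : Pt z} (hy : y ≠ o z) :
    h • y ≠ o z := fun e => hy (smul_left_cancel h (e.trans (smul_o_iff.2 (le_N z hh)).symm))

/-- `H` is transitive on the points other than the base point. -/
theorem Loc.trans (L : Loc z S) (h2 : 2 ≤ q1 z) {y y' : Pt z} (hy : y ≠ o z) (hy' : y' ≠ o z) :
    ∃ h ∈ H z, h • y = y' := by
  obtain ⟨a, ha, ha1⟩ := L.exists_D_ne_one h2 hy
  have hbij := (L.Dquot_injective hy').bijective_of_nat_card_le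
    (le_of_eq (L.card_quot.trans (L.D_card hy').symm))
  have haN : a ∈ N z := smul_o_iff.1 ha.1
  obtain ⟨d, hd⟩ := hbij.2 (QuotientGroup.mk ⟨a, haN⟩)
  rw [Dquot, QuotientGroup.eq, Subgroup.mem_subgroupOf] at hd
  -- conjugates of `a` by `H` fill the coset of `a`
  have hmem : ∀ k : H z, a⁻¹ * (k * a * (k : G)⁻¹) ∈ H z := fun k => by
    have := mul_mem ((Subgroup.mem_normalizer_iff.1 (inv_mem haN) k).1 k.2) (inv_mem k.2)
    simpa [mul_assoc] using this
  let f : H z → H z := fun k => ⟨_, hmem k⟩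
  have hinj : Function.Injective f := by
    intro k l e
    have e' : (k : G) * a * (k : G)⁻¹ = l * a * (l : G)⁻¹ :=
      mul_left_cancel (congrArg Subtype.val e)
    have hc : Commute a ((l : G)⁻¹ * k) := by
      show a * ((l : G)⁻¹ * k) = (l : G)⁻¹ * k * a
      calc a * ((l : G)⁻¹ * k) = (l : G)⁻¹ * (l * a * (l : G)⁻¹) * k := by group
        _ = _ := by rw [← e']; group
    by_contra hne
    have hne' : (l : G)⁻¹ * k ≠ 1 := fun e1 => hne (Subtype.ext (inv_mul_eq_one.1 e1).symm)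
    exact ha1 (L.eq_one_of_mem (L.odd_cen (L.odd_of_two_fixed hy.symm ha.1 ha.2)
      (mul_mem (inv_mem l.2) k.2) hne' hc) hy ha.2)
  obtain ⟨k, hk⟩ := (Finite.injective_iff_surjective.1 hinj)
    ⟨a⁻¹ * d.1, by simpa [mul_assoc] using inv_mem hd⟩
  have hk' : (k : G) * a * (k : G)⁻¹ = d.1 := mul_left_cancel (congrArg Subtype.val hk)
  refine ⟨k, k.2, ?_⟩
  have hfix : d.1 • ((k : G) • y) = (k : G) • y := by
    rw [← hk', mul_smul, mul_smul, inv_smul_smul, mem_stabilizer_iff.1 ha.2]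
  by_contra hne
  have h1 := L.three hy' (L.smul_H_ne k.2 hy) (fun e => hne e.symm) d.2.1 d.2.2 hfix
  rw [h1] at hk'
  exact ha1 (conj_eq_one_iff.1 hk')

theorem Loc.exists_point (L : Loc z S) : ∃ y : Pt z, y ≠ o z := by
  obtain ⟨g, -, hg⟩ := SetLike.exists_of_lt (lt_top_iff_ne_top.2 L.N_ne_top)
  exact ⟨g • o z, fun e => hg (smul_o_iff.1 e)⟩

theorem Loc.card_points (L : Loc z S) (h2 : 2 ≤ q1 z) : Nat.card (H z) + 1 = Nat.card (Pt z) := by
  obtain ⟨y, hy⟩ := L.exists_point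
  let f : Option (H z) → Pt z := fun k => k.elim (o z) fun k => (k : G) • y
  have hf : Function.Bijective f := by
    refine ⟨?_, fun p => ?_⟩
    · rintro (_ | k) (_ | l) e <;> simp only [f, Option.elim] at e
      · rfl
      · exact absurd e.symm (L.smul_H_ne l.2 hy)
      · exact absurd e (L.smul_H_ne k.2 hy)
      · have h : ((l : G)⁻¹ * k) • y = y := by rw [mul_smul, e, inv_smul_smul]
        rw [inv_mul_eq_one.1 (L.eq_one_of_mem (mul_mem (inv_mem l.2) k.2) hy h) |> Subtype.ext]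
    · by_cases hp : p = o z
      · exact ⟨none, hp.symm⟩
      · obtain ⟨h, hh, e⟩ := L.trans h2 hy hp
        exact ⟨some ⟨h, hh⟩, e⟩
  rw [← Nat.card_congr (Equiv.ofBijective f hf), Finite.card_option]

theorem Loc.isZassenhaus (L : Loc z S) (h2 : 2 ≤ q1 z) : Cfsg.IsZassenhausGroup G (Pt z) := by
  obtain ⟨t, ht, htH, htz⟩ := L.exists_second h2
  obtain ⟨y, hy⟩ := L.exists_point
  have hthree : ∀ g : G, ∀ a b c : Pt z, a ≠ b → b ≠ c → a ≠ c →
      g • a = a → g • b = b → g • c = c → g = 1 := by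
    intro g a b c hab hbc hac ha hb hc
    obtain ⟨k, hk⟩ := MulAction.exists_smul_eq G a (o z)
    have hf : ∀ p : Pt z, g • p = p → (k * g * k⁻¹) • (k • p) = k • p := fun p hp => by
      rw [mul_smul, mul_smul, inv_smul_smul, hp]
    have := L.three (y := k • b) (y' := k • c)
      (fun e => hab (smul_left_cancel k (hk.trans e.symm)))
      (fun e => hac (smul_left_cancel k (hk.trans e.symm)))
      (fun e => hbc (smul_left_cancel k e)) (hk ▸ hf a ha) (hf b hb) (hf c hc)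
    exact conj_eq_one_iff.1 this
  have hty : t • y ≠ y := fun e => hy (L.free htH (fun e1 => by
    rw [e1, orderOf_one] at ht; omega) e)
  refine ⟨⟨fun {a b} e => ?_⟩, ?_, hthree, ?_, ?_⟩
  · refine inv_mul_eq_one.1 (hthree (a⁻¹ * b) (o z) y (t • y) hy.symm hty.symm
      (L.smul_H_ne htH hy).symm ?_ ?_ ?_) <;> rw [mul_smul, ← e, inv_smul_smul]
  · rw [is_two_pretransitive_iff]
    intro a b c d hab hcd
    obtain ⟨g₁, hg₁⟩ := MulAction.exists_smul_eq G a (o z)
    obtain ⟨g₂, hg₂⟩ := MulAction.exists_smul_eq G c (o z)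
    obtain ⟨h, hh, he⟩ := L.trans h2 (y := g₁ • b) (y' := g₂ • d)
      (fun e => hab (smul_left_cancel g₁ (hg₁.trans e.symm)))
      (fun e => hcd (smul_left_cancel g₂ (hg₂.trans e.symm)))
    refine ⟨g₂⁻¹ * h * g₁, ?_, ?_⟩
    · rw [mul_smul, mul_smul, hg₁, smul_o_iff.2 (le_N z hh), inv_smul_eq_iff, hg₂]
    · rw [mul_smul, mul_smul, he, inv_smul_smul]
  · obtain ⟨d, hd, hd1⟩ := L.exists_D_ne_one h2 hy
    exact ⟨d, hd1, o z, y, hy.symm, hd.1, hd.2⟩
  · intro M hM htr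
    by_contra hcon
    push Not at hcon
    have hinv : ∀ v : G, v ∈ H z → orderOf v = 2 → ∀ m ∈ M, v * m * v⁻¹ = m⁻¹ := by
      intro v hv hv2 m hm
      let ψ : Subgroup.zpowers v →* MulAut M :=
        Cfsg.Agent.H21.conjHom (Cfsg.Agent.H21.le_normalizer_of_normal M _)
      refine congrArg Subtype.val (Cfsg.Agent.H21.eq_inv_of_involution ψ
        (s := ⟨v, Subgroup.mem_zpowers v⟩)
        (Subtype.ext (show v * v = 1 by rw [← sq, ← hv2, pow_orderOf_eq_one]))
        (fun k hk => ?_) ⟨m, hm⟩)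
      have e : v * k.1 * v⁻¹ = k.1 := congrArg Subtype.val hk
      have hkH : k.1 ∈ H z :=
        (L.cen_inv (le_N z hv) hv2 k.1).1 (mul_inv_eq_iff_eq_mul.1 e).symm
      have hst : k ∈ MulAction.stabilizer M (o z) := smul_o_iff.2 (le_N z hkH)
      exact Subgroup.mem_bot.1 ((hcon (o z)).le hst)
    obtain ⟨⟨m, hm⟩, hmy⟩ := htr.exists_smul_eq (o z) y
    have e1 := hinv z (self_mem z) L.ord m hm
    have e2 := hinv t htH ht m hm
    set w := z * t with hw
    have hw1 : w ≠ 1 := fun e => htz (by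
      rw [hw] at e
      rw [← inv_eq_of_mul_eq_one_right e]
      exact inv_eq_of_mul_eq_one_right (by rw [← sq, ← L.ord, pow_orderOf_eq_one]))
    have e3 : w * m * w⁻¹ = m := by
      calc w * m * w⁻¹ = z * (t * m * t⁻¹) * z⁻¹ := by rw [hw]; group
        _ = (z * m * z⁻¹)⁻¹ := by rw [e2]; group
        _ = m := by rw [e1, inv_inv]
    have hmN : m ∈ N z := cen_le_N L.ti (mul_mem (self_mem z) htH) hw1
      (mul_inv_eq_iff_eq_mul.1 e3).symm
    exact hy (hmy.symm.trans (smul_o_iff.2 hmN))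

/-- In the type A group with commuting orbit of `(1,0)` of full length the automorphism is trivial. -/
theorem typeA_contra {U : Type*} [Group U] {F : Type} [Field F] [Fintype F] [CharP F 2] (φ : F ≃+* F)
    (e : U ≃* Cfsg.suzukiTypeA F (φ : F →+* F)) (hna : ∃ u v : U, u * v ≠ v * u)
    {I : Type*} [Finite I] (hI : Nat.card I + 1 = Fintype.card F) (ψ : I → MulAut U)
    (hcomm : ∀ (i : I) (u : U), Commute (ψ i u) u)
    (hsq : ∀ (i j : I) (w : U), w ≠ 1 → ψ i w = ψ j w → i = j) : False := by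
  classical
  let u0 : Cfsg.suzukiTypeA F (φ : F →+* F) :=
    ⟨Cfsg.Agent.H48.Suzuki.typeAUnit φ 1 0, (Cfsg.Agent.H48.Suzuki.mem_typeA_iff φ _).2 ⟨1, 0, rfl⟩⟩
  set y := e.symm u0 with hy
  choose x b hxb using fun i : I =>
    (Cfsg.Agent.H48.Suzuki.mem_typeA_iff φ _).1 (e (ψ i y)).2
  have hfix : ∀ i, φ (x i) = x i := by
    intro i
    have h := ((hcomm i y).map e.toMonoidHom).eq
    have h' : (e (ψ i y)).1 * u0.1 = u0.1 * (e (ψ i y)).1 := by
      have h3 := congrArg Subtype.val h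
      simpa [hy] using h3
    rw [hxb i] at h'
    obtain ⟨-, h4⟩ := Cfsg.Agent.H48.Suzuki.typeAUnit_inj φ
      (((Cfsg.Agent.H48.Suzuki.typeAUnit_mul φ _ _ _ _).symm.trans h').trans
        (Cfsg.Agent.H48.Suzuki.typeAUnit_mul φ _ _ _ _))
    simpa using h4
  have hy2 : y * y ≠ 1 := by
    intro h
    have h3 := congrArg Subtype.val (congrArg e h)
    rw [map_mul, map_one, hy, e.apply_symm_apply] at h3
    have h5 : Cfsg.Agent.H48.Suzuki.typeAUnit φ 1 0 * Cfsg.Agent.H48.Suzuki.typeAUnit φ 1 0 =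
        Cfsg.Agent.H48.Suzuki.typeAUnit φ 0 0 := by
      rw [show Cfsg.Agent.H48.Suzuki.typeAUnit φ 0 0 = 1 from
        Units.ext (Cfsg.Agent.H48.Suzuki.typeAMat_zero φ)]
      exact h3
    obtain ⟨-, h4⟩ := Cfsg.Agent.H48.Suzuki.typeAUnit_inj φ
      ((Cfsg.Agent.H48.Suzuki.typeAUnit_mul φ _ _ _ _).symm.trans h5)
    simp at h4
  have hsq' : ∀ i, (e (ψ i (y * y))).1 = Cfsg.Agent.H48.Suzuki.typeAUnit φ 0 (φ (x i) * x i) := by
    intro i
    rw [map_mul, map_mul, Subgroup.coe_mul, hxb i, Cfsg.Agent.H48.Suzuki.typeAUnit_mul,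
      CharTwo.add_self_eq_zero, CharTwo.add_self_eq_zero, zero_add]
  have hxinj : Function.Injective x := fun i j h =>
    hsq i j _ hy2 (e.injective (Subtype.ext (by rw [hsq', hsq', h])))
  have hx0 : ∀ i, x i ≠ 0 := by
    intro i h
    apply hy2
    apply (ψ i).injective
    apply e.injective
    apply Subtype.ext
    rw [hsq', h, map_one, map_one, mul_zero, Subgroup.coe_one]
    exact Units.ext (Cfsg.Agent.H48.Suzuki.typeAMat_zero φ)
  have hall : ∀ a : F, φ a = a := by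
    intro a
    let g : Option I → F := fun o => o.elim 0 x
    have hg : Function.Injective g := by
      rintro (_ | i) (_ | j) h <;> simp only [g, Option.elim] at h
      · rfl
      · exact absurd h.symm (hx0 j)
      · exact absurd h (hx0 i)
      · rw [hxinj h]
    obtain ⟨o, ho⟩ := (hg.bijective_of_nat_card_le (by
      rw [Finite.card_option, Nat.card_eq_fintype_card, hI])).2 a
    rcases o with _ | i
    · rw [← ho]; exact map_zero φ
    · rw [← ho]; exact hfix i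
  obtain ⟨u, v, huv⟩ := hna
  apply huv
  apply e.injective
  rw [map_mul, map_mul]
  apply Subtype.ext
  obtain ⟨p, q, hp⟩ := (Cfsg.Agent.H48.Suzuki.mem_typeA_iff φ _).1 (e u).2
  obtain ⟨p', q', hp'⟩ := (Cfsg.Agent.H48.Suzuki.mem_typeA_iff φ _).1 (e v).2
  rw [Subgroup.coe_mul, Subgroup.coe_mul, hp, hp', Cfsg.Agent.H48.Suzuki.typeAUnit_mul,
    Cfsg.Agent.H48.Suzuki.typeAUnit_mul, hall, hall]
  congr 1 <;> ring

/-- The classification of the non-solvable case. -/
theorem Loc.psl (L : Loc z S) (h2 : 2 ≤ q1 z) :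
    ∃ n : ℕ, 2 ≤ n ∧ Nonempty (G ≃* Matrix.ProjectiveSpecialLinearGroup (Fin 2) (GaloisField 2 n)) := by
  classical
  have hZ := L.isZassenhaus h2
  haveI := Fintype.ofFinite (Pt z)
  obtain ⟨y, hy⟩ := L.exists_point
  have hcard := L.card_points h2
  have hHev : 2 ∣ Nat.card (H z) := L.ord ▸ Subgroup.orderOf_dvd_natCard _ (self_mem z)
  have hodd : Odd (Fintype.card (Pt z)) := by
    rw [← Nat.card_eq_fintype_card, ← hcard, Nat.odd_iff]
    omega
  have hreg : ∀ p p' : Pt z, p ≠ o z → p' ≠ o z → ∃! u : H z, (u : G) • p = p' := by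
    intro p p' hp hp'
    obtain ⟨h, hh, e⟩ := L.trans h2 hp hp'
    refine ⟨⟨h, hh⟩, e, fun k hk => Subtype.ext (inv_mul_eq_one.1 ?_).symm⟩
    refine L.eq_one_of_mem (mul_mem (inv_mem hh) k.2) hp ?_
    rw [mul_smul, hk, ← e, inv_smul_smul]
  have hconj : ∀ g ∈ MulAction.stabilizer G (o z), ∀ u ∈ H z, g * u * g⁻¹ ∈ H z := fun g hg u hu =>
    (Subgroup.mem_normalizer_iff.1 (smul_o_iff.1 hg) u).1 hu
  have hle : H z ≤ MulAction.stabilizer G (o z) := fun u hu => smul_o_iff.2 (le_N z hu)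
  have K : Cfsg.Agent.H7.ZK G (o z) y (H z) :=
    ⟨Cfsg.Agent.H7.ZHyp.of_zassenhaus hZ, hy.symm, hle, hconj, hreg⟩
  have hd := L.D_card hy
  have hdvd := K.dvd_degree
  rw [← hcard, hd] at hdvd
  have hH3 : 2 ≤ Nat.card (H z) := Nat.le_of_dvd Nat.card_pos hHev
  have hkey : Nat.card (H z) - 1 ≤ 2 * q1 z := by
    rcases Cfsg.Agent.S0885.result hZ hy.symm (Nat.card (H z)) (q1 z)
      (by rw [← Nat.card_eq_fintype_card, hcard]) hd L.q1_odd (H z) hle
      (by rw [← Nat.card_eq_fintype_card, hcard])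
      (fun u hu hu1 c hc => L.free hu hu1 hc) with h | ⟨hp2, ⟨u, v, huv⟩, -⟩
    · exact h
    exfalso
    haveI := Cfsg.Agent.H7.zassenhaus_odd_simple hZ hodd
    obtain ⟨n, -, -, -, -, hdn, F, iF, iFt, φ, hFc, ⟨e⟩⟩ := Cfsg.Agent.S1147.result hZ hy.symm
      (H z) hle hconj hreg hp2 ⟨u, u.2, v, v.2, fun e => huv (Subtype.ext e)⟩
    haveI : Fact (Nat.Prime 2) := ⟨Nat.prime_two⟩
    haveI : CharP F 2 := charP_of_card_eq_prime_pow hFc
    have hI : Nat.card (D (o z) y) + 1 = Fintype.card F := by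
      rw [hFc]
      have : Nat.card (D (o z) y) = 2 ^ n - 1 := hdn
      have := Nat.one_le_two_pow (n := n)
      omega
    let ψ : D (o z) y → MulAut (H z) := fun i =>
      Cfsg.Agent.H21.conjHom (show D (o z) y ≤ N z from fun g hg => smul_o_iff.1 hg.1) i
    refine typeA_contra φ e ⟨u, v, huv⟩ hI ψ (fun i w => ?_) (fun i j w hw hij => ?_)
    · refine Subtype.ext (?_ : Commute ((i : G) * w * (i : G)⁻¹) (w : G)).eq
      refine conj_commute (x := (w : G)) (norm_of_mem L.ti (g := (i : G)) (a := z)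
        (mem_C.1 w.2).symm ?_ L.ne_one) (Commute.refl _)
      have hiN : (i : G) ∈ N z := smul_o_iff.1 i.2.1
      exact ((L.cen_inv (mul_mem (mul_mem hiN L.mem_N_z) (inv_mem hiN))
        (by rw [orderOf_conj, L.ord]) w).2 w.2).symm
    · have e1 : (i : G) * w * (i : G)⁻¹ = j * w * (j : G)⁻¹ := congrArg Subtype.val hij
      by_contra hne
      have hne' : (j : G)⁻¹ * i ≠ 1 := fun e => hne (Subtype.ext (inv_mul_eq_one.1 e).symm)
      have hmem : (j : G)⁻¹ * i ∈ D (o z) y := mul_mem (inv_mem j.2) i.2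
      have hc : Commute ((j : G)⁻¹ * i) (w : G) := by
        show (j : G)⁻¹ * i * w = w * ((j : G)⁻¹ * i)
        calc (j : G)⁻¹ * i * w = (j : G)⁻¹ * (i * w * (i : G)⁻¹) * i := by group
          _ = _ := by rw [e1]; group
      exact hne' (L.eq_one_of_mem (L.odd_cen (L.odd_of_two_fixed hy.symm hmem.1 hmem.2) w.2
        (fun e => hw (Subtype.ext e)) hc) hy hmem.2)
  have hfull : Fintype.card (Pt z) = Nat.card (D (o z) y) + 2 := by
    obtain ⟨k, hk⟩ := hdvd
    rw [← Nat.card_eq_fintype_card, ← hcard, hd]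
    obtain ⟨m, hm⟩ := L.q1_odd
    obtain ⟨r, hr⟩ := hHev
    have hk2 : k ≤ 2 := Nat.le_of_mul_le_mul_left
      (by rw [← hk, mul_comm _ 2]; omega) (show 0 < q1 z by omega)
    interval_cases k <;> omega
  obtain ⟨F, iF, iFt, hchar, hFcard, ⟨φ⟩⟩ :=
    Cfsg.Agent.H7.ZHyp.psl_of_odd_full (Cfsg.Agent.H7.ZHyp.of_zassenhaus hZ) hy.symm hodd hfull
  haveI : CharP F 2 := hchar ▸ ringChar.charP F
  obtain ⟨n, -, hn⟩ := FiniteField.card F 2
  have hF4 : 4 ≤ Fintype.card F := by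
    rw [hfull, hd] at hFcard
    obtain ⟨m, hm⟩ := L.q1_odd
    omega
  have hn2 : 2 ≤ (n : ℕ) := by
    by_contra hlt
    rw [hn] at hF4
    interval_cases (n : ℕ) <;> simp_all
  refine ⟨n, hn2, ?_⟩
  haveI : Fact (Nat.Prime 2) := ⟨Nat.prime_two⟩
  haveI := Fintype.ofFinite (GaloisField 2 n)
  obtain ⟨ρ⟩ := Cfsg.Agent.H31.nonempty_psl_ringEquiv (FiniteField.ringEquivOfCardEq
    (K := F) (K' := GaloisField 2 n) (by
      rw [hn, ← Nat.card_eq_fintype_card, GaloisField.card 2 n n.pos.ne'])) (Fin 2)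
  exact ⟨φ.trans ρ⟩

/-- The non-solvable case. -/
theorem nonsolvable_case (h : Hyp G) (hns : ¬ Group.IsSolvable G) :
    ∃ n : ℕ, 2 ≤ n ∧ Nonempty (G ≃* Matrix.ProjectiveSpecialLinearGroup (Fin 2) (GaloisField 2 n)) := by
  have hCN := isCN h
  haveI : Fact (Nat.Prime 2) := ⟨Nat.prime_two⟩
  have hev : Even (Nat.card G) := by
    by_contra hodd
    exact hns (Cfsg.Agent.S0183.result (Nat.not_even_iff_odd.1 hodd) hCN)
  let S : Sylow 2 G := default
  have hS1 : (S : Subgroup G) ≠ ⊥ := fun e => S.not_dvd_index (by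
    rw [e, Subgroup.index_bot]; exact even_iff_two_dvd.1 hev)
  have hnn : ¬ (S : Subgroup G).Normal := by
    intro hn
    haveI := S.2.isNilpotent
    have hsS : Group.IsSolvable (S : Subgroup G) := inferInstance
    haveI : Group.IsSolvable (G ⧸ (S : Subgroup G)) := Cfsg.Agent.S0183.result
      (by rw [← Subgroup.index_eq_card, ← Nat.not_even_iff_odd, even_iff_two_dvd]; exact S.not_dvd_index)
      (Cfsg.Agent.H54.cn_quotient hCN _ hsS)
    exact hns (solvable_of_ker_le_range (S : Subgroup G).subtype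
      (QuotientGroup.mk' (S : Subgroup G)) (by simp))
  haveI : Nontrivial (S : Subgroup G) := (Subgroup.nontrivial_iff_ne_bot _).2 hS1
  haveI := S.2.center_nontrivial
  obtain ⟨c, hc⟩ := exists_prime_orderOf_dvd_card' (G := Subgroup.center (S : Subgroup G)) 2 (by
    obtain ⟨k, hk0, hk⟩ := (S.2.to_subgroup (Subgroup.center _)).nontrivial_iff_card.1 inferInstance
    rw [hk]; exact dvd_pow_self 2 hk0.ne')
  have L : Loc ((c : (S : Subgroup G)) : G) S :=
    ⟨h, by rw [Subgroup.orderOf_coe, Subgroup.orderOf_coe, hc],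
      fun s hs => congrArg Subtype.val (Subgroup.mem_center_iff.1 c.2 ⟨s, hs⟩), hnn⟩
  exact L.psl (L.two_le_q1 hns)

end Cfsg.Agent.H59.TIC
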